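import Mathlib
import Cfsg.Agent.H815.CoE
import Cfsg.Agent.H573.PCent

set_option autoImplicit false

/-!
# The 2-central involutions of `Co1`

They are the conjugates of the octad elements.
-/

namespace Cfsg.Agent.H815.CoE

open Cfsg
open Cfsg.Agent.SporadicA.Co0Mono Cfsg.Agent.SporadicA.Co1Simple
open Cfsg.Agent.CoOneType.CoOneE
open Cfsg.Agent.CoOneType.SignFacts

/-- An involution whose centraliser has odd index is conjugate to the octad elements. -/
theorem isConj_of_odd {o : golayCode} (ho : wt o = 8) {z : Spor.Co1} (hz : orderOf z = 2)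
    (hodd : Odd (Subgroup.centralizer ({z} : Set Spor.Co1)).index) :
    IsConj (pr (signCo0 o)) z := by
  have : Fact (Nat.Prime 2) := ⟨Nat.prime_two⟩
  have : Finite Spor.Co1 := Nat.finite_of_card_ne_zero (by
    rw [Cfsg.Agent.CoOneType.Identify.card_co1]; norm_num)
  obtain ⟨S, hS⟩ := Cfsg.Agent.KFacts.Co1D4.Base.syl ho
  obtain ⟨T, hT⟩ := Cfsg.Agent.KFacts.SheetOf.exists_sylow _ hodd
  obtain ⟨g, hg⟩ := MulAction.exists_smul_eq Spor.Co1 T S
  have hgS : ∀ x : Spor.Co1, x ∈ S ↔ g⁻¹ * x * g ∈ T := by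
    intro x
    rw [← hg]
    rw [← SetLike.mem_coe, Sylow.coe_smul, Set.mem_smul_set_iff_inv_smul_mem]
    show (MulAut.conj g)⁻¹ x ∈ _ ↔ _
    rw [MulAut.conj_inv_apply]
    rfl
  have h1 : g * z * g⁻¹ ∈ S := by
    apply Cfsg.Agent.H573.mem_sylow_of_commute S
    · refine ⟨1, ?_⟩
      rw [pow_one]
      have h2 : orderOf (g * z * g⁻¹) = orderOf z :=
        (MulAut.conj g).orderOf_eq z
      rw [h2, hz]
    · intro y hy
      have h3 := Subgroup.mem_centralizer_singleton_iff.1 (hT ((hgS y).1 hy))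
      calc y * (g * z * g⁻¹) = g * ((g⁻¹ * y * g) * z) * g⁻¹ := by group
        _ = g * (z * (g⁻¹ * y * g)) * g⁻¹ := by rw [h3]
        _ = g * z * g⁻¹ * y := by group
  have h4 := hS _ h1 (by
    intro y hy
    have h3 := Subgroup.mem_centralizer_singleton_iff.1 (hT ((hgS y).1 hy))
    calc y * (g * z * g⁻¹) = g * ((g⁻¹ * y * g) * z) * g⁻¹ := by group
      _ = g * (z * (g⁻¹ * y * g)) * g⁻¹ := by rw [h3]
      _ = g * z * g⁻¹ * y := by group)
  rcases h4 with h4 | h4
  · exfalso
    have h5 : z = 1 := by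
      have : g⁻¹ * (g * z * g⁻¹) * g = z := by group
      rw [h4] at this
      rw [← this]; group
    rw [h5, orderOf_one] at hz
    omega
  · have h5 : IsConj z (Cfsg.Agent.CoOneType.ClosingFacts.mk (signCo0 o)) :=
      isConj_iff.2 ⟨g, h4⟩
    exact h5.symm

/-- the index is odd for the order `2^9 |Ω⁺(8, 2)|` -/
theorem odd_of_card {z : Spor.Co1}
    (h : Nat.card (Subgroup.centralizer ({z} : Set Spor.Co1)) = 89181388800) :
    Odd (Subgroup.centralizer ({z} : Set Spor.Co1)).index := by
  have h1 := (Subgroup.centralizer ({z} : Set Spor.Co1)).card_mul_index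
  rw [h, Cfsg.Agent.CoOneType.Identify.card_co1] at h1
  have h2 : (Subgroup.centralizer ({z} : Set Spor.Co1)).index = 46621575 := by omega
  rw [h2]
  decide

/-- Centralisers under isomorphisms. -/
theorem card_centralizer_map {G H : Type*} [Group G] [Group H] (e : G ≃* H) (z : G) :
    Nat.card (Subgroup.centralizer ({e z} : Set H)) = Nat.card (Subgroup.centralizer ({z} : Set G)) := by
  have h1 : (Subgroup.centralizer ({z} : Set G)).map e.toMonoidHom =
      Subgroup.centralizer ({e z} : Set H) := by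
    ext x
    constructor
    · rintro ⟨y, hy, rfl⟩
      have h2 : y * z = z * y := Subgroup.mem_centralizer_singleton_iff.1 hy
      refine Subgroup.mem_centralizer_singleton_iff.2 ?_
      show e y * e z = e z * e y
      rw [← map_mul, h2, map_mul]
    · intro hx
      obtain ⟨y, rfl⟩ := e.surjective x
      have h2 : e y * e z = e z * e y := Subgroup.mem_centralizer_singleton_iff.1 hx
      rw [← map_mul, ← map_mul] at h2
      exact ⟨y, Subgroup.mem_centralizer_singleton_iff.2 (e.injective h2), rfl⟩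
  rw [← h1]
  exact (Nat.card_congr ((Subgroup.centralizer ({z} : Set G)).equivMapOfInjective e.toMonoidHom
    e.injective).toEquiv).symm

/-- **The local subgroup through an involution with the right centraliser order.** -/
theorem exists_local {G : Type*} [Group G] [Finite G] (hG : Cfsg.Spor.IsoCo1 G) {z : G}
    (hz : orderOf z = 2) (hc : Nat.card (Subgroup.centralizer ({z} : Set G)) = 89181388800) :
    ∃ A : Subgroup G, ∃ e : Spor.Co1 ≃* G, A = E.map e.toMonoidHom ∧ z ∈ A := by
  obtain ⟨φ⟩ := hG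
  obtain ⟨o, ho⟩ := exists_octad
  have h1 : orderOf (φ z) = 2 := by rw [φ.orderOf_eq, hz]
  have h2 := isConj_of_odd ho h1 (odd_of_card (by rw [card_centralizer_map]; exact hc))
  obtain ⟨g, hg⟩ := isConj_iff.1 h2
  refine ⟨_, (MulAut.conj g).trans φ.symm, rfl, pr (signCo0 o), ⟨o, rfl⟩, ?_⟩
  show φ.symm (g * pr (signCo0 o) * g⁻¹) = z
  rw [hg, φ.symm_apply_apply]

end Cfsg.Agent.H815.CoE
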