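import Mathlib
import Cfsg.Prelude.Def_Classification2
import Cfsg.Agent.H815.HnG
import Cfsg.Agent.Schreier.Assembly
import Cfsg.Agent.S0000

set_option autoImplicit false

/-!
# Groups with `C_G(Z) = 3^{1+4} : SL(2,5)`, `Z` not weakly closed, are simple (helper815)
-/

namespace Cfsg.Agent.H815.HnG

open Subgroup Cfsg Cfsg.Agent.H815.HnSl Cfsg.Agent.H815.HnLoc

namespace GC

variable {G : Type*} [Group G] [Finite G] {S : Sylow 3 G} {Z Q : Subgroup G}
  {π : ↥(centralizer (Z : Set G)) →* L} (h : GC S Z Q π)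
include h

/-- an element of `Q \\ Z` is inverted by an element of `C_G(Z)` -/
theorem exists_inv {y : G} (hy : y ∈ Q) (hyZ : y ∉ Z) : ∃ c ∈ centralizer (Z : Set G), c * y * c⁻¹ = y⁻¹ := by
  obtain ⟨u, hu⟩ := h.lc.surj neg1
  have h1 := h.lc.inv_of_neg hu (q := ⟨y, h.QC hy⟩) hy
  have h2 : (u : G) * y * (u : G)⁻¹ * y ∈ Z := h1
  have h3 : y⁻¹ ∉ Z := fun h4 => hyZ (by simpa using Z.inv_mem h4)
  obtain ⟨r, hr, h4⟩ := h.exists_conj (Q.inv_mem hy) h3 h2
  refine ⟨r⁻¹ * u, (centralizer (Z : Set G)).mul_mem ((centralizer (Z : Set G)).inv_mem (h.QC hr)) u.2, ?_⟩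
  have h5 : (u : G) * y * (u : G)⁻¹ * y * y⁻¹ = (u : G) * y * (u : G)⁻¹ := by group
  rw [h5] at h4
  calc r⁻¹ * u * y * (r⁻¹ * u)⁻¹ = r⁻¹ * (u * y * (u : G)⁻¹) * r := by group
    _ = r⁻¹ * (r * y⁻¹ * r⁻¹) * r := by rw [h4]
    _ = y⁻¹ := by group

theorem exists_y (hw : ∃ x : G, Z.map (MulAut.conj x).toMonoidHom ≤ Q ∧ Z.map (MulAut.conj x).toMonoidHom ≠ Z) :
    ∃ x : G, ∃ z ∈ Z, z ≠ 1 ∧ x * z * x⁻¹ ∈ Q ∧ x * z * x⁻¹ ∉ Z := by
  obtain ⟨x, hx, hxne⟩ := hw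
  obtain ⟨z, hz, hz1⟩ := h.exists_gen
  refine ⟨x, z, hz, hz1, hx ⟨z, hz, rfl⟩, fun hyZ => hxne ?_⟩
  have h1 : Nat.card ↥(Z.map (MulAut.conj x).toMonoidHom) = 3 := by
    rw [Subgroup.card_map_of_injective (MulAut.conj x).injective, h.cardZ]
  have h2 : Z.map (MulAut.conj x).toMonoidHom ≤ Z := by
    refine H261.eq_of_mem_of_card_prime Nat.prime_three h1 (x := x * z * x⁻¹) ⟨z, hz, rfl⟩ ?_ hyZ
    intro h3
    exact hz1 (conj_eq_one_iff.1 h3)
  exact Subgroup.eq_of_le_of_card_ge h2 (by rw [h1, h.cardZ])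

theorem isSimple (hw : ∃ x : G, Z.map (MulAut.conj x).toMonoidHom ≤ Q ∧ Z.map (MulAut.conj x).toMonoidHom ≠ Z) :
    IsSimpleGroup G ∧ ¬ IsMulCommutative G := by
  have h3 : Fact (Nat.Prime 3) := ⟨Nat.prime_three⟩
  obtain ⟨x, z, hz, hz1, hyQ, hyZ⟩ := h.exists_y hw
  obtain ⟨hKn, hKs, hKc, hZK, hCK⟩ := h.loc.simple Nat.prime_three (h.core_eq_bot hw) ⟨x, z, hz, hyZ⟩
  obtain ⟨K, hKdef⟩ : ∃ K, K = generalizedFittingSubgroup G := ⟨_, rfl⟩
  rw [← hKdef] at hKn hKs hKc hZK hCK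
  -- `Q ≤ K`
  have hQK : Q ≤ K := by
    have h1 := h.lc.irr (B := (K ⊓ Q).subgroupOf (centralizer (Z : Set G))) ?_ ?_ ?_
    · rcases h1 with h1 | h1
      · exfalso
        apply hyZ
        have h2 : (⟨x * z * x⁻¹, h.QC hyQ⟩ : ↥(centralizer (Z : Set G))) ∈
            (K ⊓ Q).subgroupOf (centralizer (Z : Set G)) := ⟨hKn.conj_mem z (hZK hz) x, hyQ⟩
        rw [h1] at h2
        exact h2
      · intro q hq
        have h2 : (⟨q, h.QC hq⟩ : ↥(centralizer (Z : Set G))) ∈ Q.subgroupOf (centralizer (Z : Set G)) := hq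
        rw [← h1] at h2
        exact h2.1
    · intro w hw
      exact ⟨hZK hw, h.le hw⟩
    · intro w hw
      exact hw.2
    · rintro c b ⟨hb1, hb2⟩
      exact ⟨hKn.conj_mem _ hb1 _, h.conj_Q c.2 hb2⟩
  -- `C ≤ K`
  have hKk : IsKnownSimple' ↥K := Cfsg.Agent.S0000.result
  have hsch := Cfsg.Agent.Schreier.Assembly.known ↥K hKc hKk
  have hCleK : centralizer (Z : Set G) ≤ K := by
    obtain ⟨P, hP⟩ := exists_minimal_of_wellFoundedLT (fun P : Subgroup ↥(centralizer (Z : Set G)) => P.map π = ⊤)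
      ⟨⊤, by rw [← MonoidHom.range_eq_map]; exact MonoidHom.range_eq_top.2 h.lc.surj⟩
    have hPmap : P.map π = ⊤ := hP.1
    have hPP : ⁅P, P⁆ = P := by
      have h1 : ⁅P, P⁆ ≤ P := Subgroup.commutator_le_self P
      refine le_antisymm h1 (hP.2 ?_ h1)
      change (⁅P, P⁆).map π = ⊤
      rw [Subgroup.map_commutator, hPmap]
      exact HnSl.perfect
    let φ : G →* MulAut ↥K := MulAut.conjNormal
    have h2 := hsch ((P.map (centralizer (Z : Set G)).subtype).map φ) (by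
      rw [← Subgroup.map_commutator, ← Subgroup.map_commutator, hPP])
    have hPK : ∀ p ∈ P, (p : G) ∈ K := by
      intro p hp
      obtain ⟨k, hk⟩ := h2 ⟨(p : G), ⟨p, hp, rfl⟩, rfl⟩
      have h4 : (k : G)⁻¹ * p ∈ centralizer (K : Set G) := by
        rw [Subgroup.mem_centralizer_iff]
        intro y hy
        have h5 := congrArg (fun a : MulAut ↥K => ((a ⟨y, hy⟩ : ↥K) : G)) hk
        have h6 : (k : G) * y * (k : G)⁻¹ = p * y * (p : G)⁻¹ := h5
        calc y * ((k : G)⁻¹ * p) = (k : G)⁻¹ * ((k : G) * y * (k : G)⁻¹) * p := by group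
          _ = (k : G)⁻¹ * (p * y * (p : G)⁻¹) * p := by rw [h6]
          _ = (k : G)⁻¹ * p * y := by group
      rw [hCK, Subgroup.mem_bot, inv_mul_eq_one] at h4
      rw [← h4]
      exact k.2
    intro c hc
    have h4 : π ⟨c, hc⟩ ∈ P.map π := by rw [hPmap]; exact mem_top _
    obtain ⟨p, hp, hpc⟩ := h4
    have h5 : p⁻¹ * ⟨c, hc⟩ ∈ Q.subgroupOf (centralizer (Z : Set G)) := by
      rw [h.lc.mem_iff, map_mul, map_inv, hpc, inv_mul_cancel]
    have h6 : (p : G)⁻¹ * c ∈ K := hQK h5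
    have h7 := K.mul_mem (hPK p hp) h6
    rwa [mul_inv_cancel_left] at h7
  -- `N_G(Z) ≤ K`
  obtain ⟨c, hc, hcy⟩ := h.exists_inv hyQ hyZ
  have hNK : ∀ n : G, n * z * n⁻¹ ∈ Z → n ∈ K := by
    intro n hn
    have h1 : n * z * n⁻¹ = z ∨ n * z * n⁻¹ = z⁻¹ := by
      have h2 : zpowers z = Z := by
        refine le_antisymm ((zpowers_le).2 hz) ?_
        exact H261.eq_of_mem_of_card_prime Nat.prime_three h.cardZ hz hz1 (mem_zpowers z)
      have hz3 : z ^ 3 = 1 := congrArg Subtype.val (h.lc.exp ⟨z, h.QC (h.le hz)⟩ (h.le hz))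
      rw [← h2] at hn
      obtain ⟨i, hi⟩ := mem_zpowers_iff.1 hn
      have hi2 : z ^ i = z ^ (i % 3) := by
        conv_lhs => rw [← Int.mul_ediv_add_emod i 3, zpow_add, zpow_mul]
        have : z ^ (3 : ℤ) = 1 := by rw [← hz3]; norm_cast
        rw [this, one_zpow, one_mul]
      rw [← hi, hi2]
      have h0 : 0 ≤ i % 3 := Int.emod_nonneg i (by norm_num)
      have h4 : i % 3 < 3 := Int.emod_lt_of_pos i (by norm_num)
      have h5 : i % 3 = 0 ∨ i % 3 = 1 ∨ i % 3 = 2 := by omega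
      rcases h5 with h5 | h5 | h5
      · exfalso
        rw [hi2, h5, zpow_zero] at hi
        exact hz1 (conj_eq_one_iff.1 hi.symm)
      · left; rw [h5, zpow_one]
      · right
        rw [h5]
        have h5 : z ^ (2 : ℤ) = z ^ 3 * z⁻¹ := by
          rw [pow_succ, mul_inv_cancel_right]
          norm_cast
        rw [h5, hz3, one_mul]
    rcases h1 with h1 | h1
    · refine hCleK ((h.mem_C_iff hz hz1).2 ?_)
      rwa [mul_inv_eq_iff_eq_mul] at h1
    · have hk0 : x⁻¹ * c * x ∈ K := by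
        have := hKn.conj_mem c (hCleK hc) x⁻¹
        simpa using this
      have h2 : (x⁻¹ * c * x) * z * (x⁻¹ * c * x)⁻¹ = z⁻¹ := by
        calc (x⁻¹ * c * x) * z * (x⁻¹ * c * x)⁻¹ = x⁻¹ * (c * (x * z * x⁻¹) * c⁻¹) * x := by group
          _ = x⁻¹ * (x * z * x⁻¹)⁻¹ * x := by rw [hcy]
          _ = z⁻¹ := by group
      have h4 : (x⁻¹ * c * x)⁻¹ * n ∈ centralizer (Z : Set G) := by
        refine (h.mem_C_iff hz hz1).2 ?_
        rw [← h2] at h1
        rw [mul_inv_eq_iff_eq_mul] at h1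
        calc (x⁻¹ * c * x)⁻¹ * n * z = (x⁻¹ * c * x)⁻¹ * (n * z) := by group
          _ = (x⁻¹ * c * x)⁻¹ * (x⁻¹ * c * x * z * (x⁻¹ * c * x)⁻¹ * n) := by rw [h1]
          _ = z * ((x⁻¹ * c * x)⁻¹ * n) := by group
      have h5 := K.mul_mem hk0 (hCleK h4)
      rwa [mul_inv_cancel_left] at h5
  -- Frattini
  have hSK : (S : Subgroup G) ≤ K := h.SC.trans hCleK
  have htop : K = ⊤ := by
    have h1 := Sylow.normalizer_sup_eq_top (S.subtype hSK)
    have h2 : ((S.subtype hSK : Sylow 3 ↥K) : Subgroup ↥K).map K.subtype = (S : Subgroup G) := by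
      change ((S : Subgroup G).subgroupOf K).map K.subtype = (S : Subgroup G)
      exact Subgroup.map_subgroupOf_eq_of_le hSK
    rw [h2] at h1
    rw [eq_top_iff, ← h1]
    refine sup_le ?_ le_rfl
    intro n hn
    apply hNK
    refine h.ZS _ ((Subgroup.mem_normalizer_iff.1 hn z).1 (h.QS (h.le hz))) ?_
    intro s hs
    have h4 : n⁻¹ * s * n ∈ (S : Subgroup G) := by
      have := (Subgroup.mem_normalizer_iff.1 ((normalizer ((S : Subgroup G) : Set G)).inv_mem hn) s).1 hs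
      simpa using this
    have h5 : (n⁻¹ * s * n) * z = z * (n⁻¹ * s * n) := ((Subgroup.mem_centralizer_iff.1 (h.SC h4)) z hz).symm
    calc s * (n * z * n⁻¹) = n * ((n⁻¹ * s * n) * z) * n⁻¹ := by group
      _ = n * (z * (n⁻¹ * s * n)) * n⁻¹ := by rw [h5]
      _ = n * z * n⁻¹ * s := by group
  subst htop
  have e : ↥(⊤ : Subgroup G) ≃* G := Subgroup.topEquiv
  refine ⟨e.symm.isSimpleGroup, fun hcomm => hKc ?_⟩
  exact ⟨⟨fun a b => Subtype.ext (hcomm.is_comm.comm (a : G) b)⟩⟩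

end GC

end Cfsg.Agent.H815.HnG
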