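import Mathlib
import Cfsg.Agent.H815.HnSimple

set_option autoImplicit false

/-!
# Arithmetic of the groups with `C_G(Z) = 3^{1+4} : SL(2,5)` (helper815)

`GC.index_mod`: the number of the conjugates of a generator `z` of `Z` is congruent to 5 or 8 modulo 9.
-/

namespace Cfsg.Agent.H815.HnG

open Subgroup Cfsg Cfsg.Agent.H815.HnSl Cfsg.Agent.H815.HnLoc

namespace GC

variable {G : Type*} [Group G] [Finite G] {S : Sylow 3 G} {Z Q : Subgroup G}
  {π : ↥(centralizer (Z : Set G)) →* L} (h : GC S Z Q π)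
include h

/-- abelian 3-subgroups -/
theorem card_abelian {A : Subgroup G} (hA : IsPGroup 3 ↥A) (hc : ∀ a ∈ A, ∀ b ∈ A, a * b = b * a) :
    Nat.card ↥A ≤ 81 := by
  have h3 : Fact (Nat.Prime 3) := ⟨Nat.prime_three⟩
  obtain ⟨P, hP⟩ := hA.exists_le_sylow
  obtain ⟨g, hg⟩ := MulAction.exists_smul_eq G P S
  have h1 : A.map (MulAut.conj g).toMonoidHom ≤ (S : Subgroup G) := by
    rintro _ ⟨a, ha, rfl⟩
    rw [← hg]
    exact Subgroup.smul_mem_pointwise_smul a (MulAut.conj g) (P : Subgroup G) (hP ha)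
  have h2 : Nat.card ↥((A.map (MulAut.conj g).toMonoidHom).subgroupOf (centralizer (Z : Set G))) = Nat.card A := by
    rw [Nat.card_congr (Subgroup.subgroupOfEquivOfLe (h1.trans h.SC)).toEquiv,
      Subgroup.card_map_of_injective (MulAut.conj g).injective]
  rw [← h2]
  refine h.lc.card_abelian ?_ ?_
  · obtain ⟨k, hk⟩ := IsPGroup.iff_card.1 hA
    exact IsPGroup.of_card (n := k) (by rw [h2, hk])
  · rintro ⟨_, _⟩ ⟨a, ha, rfl⟩ ⟨_, _⟩ ⟨b, hb, rfl⟩
    apply Subtype.ext
    change MulAut.conj g a * MulAut.conj g b = MulAut.conj g b * MulAut.conj g a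
    rw [← map_mul, hc a ha b hb, map_mul]

omit [Finite G] in
theorem card_C : Nat.card ↥(centralizer (Z : Set G)) = 29160 := h.lc.card

/-- conjugates of `Z` and Sylow subgroups: an element of order 3 centralized by a subgroup of order `3^6` -/
theorem exists_conj_of_dvd {y : G} (hd : 3 ^ 6 ∣ Nat.card ↥(centralizer {y} : Subgroup G)) :
    ∃ g : G, g * y * g⁻¹ ∈ Z := by
  have h3 : Fact (Nat.Prime 3) := ⟨Nat.prime_three⟩
  obtain ⟨P⟩ : Nonempty (Sylow 3 ↥(centralizer {y} : Subgroup G)) := inferInstance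
  have h1 : 3 ^ 6 ∣ Nat.card ↥(P : Subgroup ↥(centralizer {y} : Subgroup G)) := P.pow_dvd_card_of_pow_dvd_card hd
  obtain ⟨T, hT⟩ : ∃ T : Subgroup G, T = (P : Subgroup ↥(centralizer {y} : Subgroup G)).map
    (centralizer {y} : Subgroup G).subtype := ⟨_, rfl⟩
  have hTp : IsPGroup 3 ↥T := by rw [hT]; exact P.isPGroup'.map _
  have hTc : Nat.card ↥T = Nat.card ↥(P : Subgroup ↥(centralizer {y} : Subgroup G)) := by
    rw [hT, Subgroup.card_map_of_injective (Subgroup.subtype_injective _)]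
  obtain ⟨P', hP'⟩ := hTp.exists_le_sylow
  obtain ⟨g, hg⟩ := MulAction.exists_smul_eq G P' S
  have h5 : ∀ t ∈ T, g * t * g⁻¹ ∈ (S : Subgroup G) := by
    intro t ht
    rw [← hg]
    exact Subgroup.smul_mem_pointwise_smul t (MulAut.conj g) (P' : Subgroup G) (hP' ht)
  have h6 : T.map (MulAut.conj g).toMonoidHom = (S : Subgroup G) := by
    refine Subgroup.eq_of_le_of_card_ge ?_ ?_
    · rintro _ ⟨t, ht, rfl⟩
      exact h5 t ht
    · rw [Subgroup.card_map_of_injective (MulAut.conj g).injective, hTc]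
      have hcS : Nat.card ↥(S : Subgroup G) = 729 := h.cardS
      rw [hcS]
      exact Nat.le_of_dvd Nat.card_pos (by norm_num at h1 ⊢; exact h1)
  -- `y` is in the Sylow subgroup
  have hyT : ∀ t ∈ T, t * y = y * t := by
    intro t ht
    rw [hT] at ht
    obtain ⟨⟨t, htc⟩, -, rfl⟩ := ht
    exact mem_centralizer_singleton_iff.1 htc
  refine ⟨g, ?_⟩
  have h7 : ∀ s ∈ (S : Subgroup G), s * (g * y * g⁻¹) = g * y * g⁻¹ * s := by
    intro s hs
    rw [← h6] at hs
    obtain ⟨t, ht, rfl⟩ := hs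
    change g * t * g⁻¹ * (g * y * g⁻¹) = g * y * g⁻¹ * (g * t * g⁻¹)
    calc g * t * g⁻¹ * (g * y * g⁻¹) = g * (t * y) * g⁻¹ := by group
      _ = g * (y * t) * g⁻¹ := by rw [hyT t ht]
      _ = _ := by group
  refine h.ZS _ ?_ h7
  apply h.QS
  apply h.CQ
  rw [Subgroup.mem_centralizer_iff]
  intro q hq
  exact h7 q (h.QS hq)

omit [Finite G] h in
theorem card_centralizer_conj (g y : G) :
    Nat.card ↥(centralizer {g * y * g⁻¹} : Subgroup G) = Nat.card ↥(centralizer {y} : Subgroup G) := by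
  refine Nat.card_congr
    { toFun := fun b => ⟨g⁻¹ * b.1 * g, ?_⟩
      invFun := fun b => ⟨g * b.1 * g⁻¹, ?_⟩
      left_inv := fun b => Subtype.ext (by group)
      right_inv := fun b => Subtype.ext (by group) }
  · have h1 := mem_centralizer_singleton_iff.1 b.2
    rw [mem_centralizer_singleton_iff]
    calc g⁻¹ * b.1 * g * y = g⁻¹ * (b.1 * (g * y * g⁻¹)) * g := by group
      _ = g⁻¹ * (g * y * g⁻¹ * b.1) * g := by rw [h1]
      _ = _ := by group
  · have h1 := mem_centralizer_singleton_iff.1 b.2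
    rw [mem_centralizer_singleton_iff]
    calc g * b.1 * g⁻¹ * (g * y * g⁻¹) = g * (b.1 * y) * g⁻¹ := by group
      _ = g * (y * b.1) * g⁻¹ := by rw [h1]
      _ = _ := by group

theorem card_centralizer_of_dvd {y : G} (hy : orderOf y = 3) (hd : 3 ^ 6 ∣ Nat.card ↥(centralizer {y} : Subgroup G)) :
    Nat.card ↥(centralizer {y} : Subgroup G) = 29160 := by
  obtain ⟨g, hg⟩ := h.exists_conj_of_dvd hd
  have h1 : g * y * g⁻¹ ≠ 1 := by
    intro h2
    have h3 := conj_eq_one_iff.1 h2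
    rw [h3, orderOf_one] at hy
    norm_num at hy
  rw [← card_centralizer_conj g y, h.centralizer_eq hg h1, h.card_C]

/-- an element of order 3 with at most three conjugates under `S` is in `S` -/
theorem mem_S_of_relIndex {y : G} (hy : orderOf y = 3) (hr : (centralizer {y}).relIndex (S : Subgroup G) ≤ 3) :
    y ∈ (S : Subgroup G) := by
  have h3 : Fact (Nat.Prime 3) := ⟨Nat.prime_three⟩
  have hcS : Nat.card ↥(S : Subgroup G) = 729 := h.cardS
  by_contra hyS
  obtain ⟨D, hD⟩ : ∃ D : Subgroup G, D = centralizer {y} ⊓ S := ⟨_, rfl⟩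
  have h1 := card_mul_rel (inf_le_right : centralizer {y} ⊓ (S : Subgroup G) ≤ S)
  rw [Subgroup.inf_relIndex_right, hcS, ← hD] at h1
  have hD243 : 243 ≤ Nat.card ↥D := by
    by_contra hcon
    push Not at hcon
    have : Nat.card ↥D * (centralizer {y}).relIndex (S : Subgroup G) ≤ 242 * 3 := Nat.mul_le_mul (by omega) hr
    omega
  have hDp : IsPGroup 3 ↥D := S.isPGroup'.to_le (by rw [hD]; exact inf_le_right)
  have hyp : IsPGroup 3 ↥(zpowers y) := IsPGroup.of_card (n := 1) (by rw [Nat.card_zpowers, hy, pow_one])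
  have hDy : ∀ d ∈ D, d * y = y * d := by
    intro d hd
    rw [hD] at hd
    exact mem_centralizer_singleton_iff.1 hd.1
  have hn : zpowers y ≤ normalizer (D : Set G) := by
    rw [zpowers_le]
    refine Subgroup.mem_normalizer_fintype fun d hd => ?_
    change y * d * y⁻¹ ∈ D
    rw [← hDy d hd, mul_inv_cancel_right]
    exact hd
  obtain ⟨T, hT⟩ : ∃ T : Subgroup G, T = zpowers y ⊔ D := ⟨_, rfl⟩
  have hTp : IsPGroup 3 ↥T := by rw [hT]; exact hyp.to_sup_of_normal_right' hDp hn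
  have hDT : D ≤ T := by rw [hT]; exact le_sup_right
  have hyT : y ∈ T := by rw [hT]; exact (le_sup_left : zpowers y ≤ _) (mem_zpowers y)
  have hyD : y ∉ D := by
    intro h4
    rw [hD] at h4
    exact hyS h4.2
  have hT729 : 729 ≤ Nat.card ↥T := by
    obtain ⟨a, ha⟩ := IsPGroup.iff_card.1 hTp
    obtain ⟨b, hb⟩ := IsPGroup.iff_card.1 hDp
    have h4 : b < a := by
      by_contra hcon
      push Not at hcon
      have h5 : D = T := by
        refine Subgroup.eq_of_le_of_card_ge hDT ?_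
        rw [ha, hb]
        exact Nat.pow_le_pow_right (by norm_num) hcon
      exact hyD (h5 ▸ hyT)
    have h5 : 5 ≤ b := by
      by_contra hcon
      push Not at hcon
      have : 3 ^ b ≤ 3 ^ 4 := Nat.pow_le_pow_right (by norm_num) (by omega)
      rw [hb] at hD243
      omega
    rw [ha]
    calc 729 = 3 ^ 6 := by norm_num
      _ ≤ 3 ^ a := Nat.pow_le_pow_right (by norm_num) (by omega)
  obtain ⟨P, hP⟩ := hTp.exists_le_sylow
  obtain ⟨g, hg⟩ := MulAction.exists_smul_eq G P S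
  have h6 : T.map (MulAut.conj g).toMonoidHom = (S : Subgroup G) := by
    refine Subgroup.eq_of_le_of_card_ge ?_ ?_
    · rintro _ ⟨t, ht, rfl⟩
      rw [← hg]
      exact Subgroup.smul_mem_pointwise_smul t (MulAut.conj g) (P : Subgroup G) (hP ht)
    · rw [Subgroup.card_map_of_injective (MulAut.conj g).injective, hcS]
      exact hT729
  have hDne : D ≠ ⊥ := by
    intro hb
    rw [hb, Subgroup.card_bot] at hD243
    norm_num at hD243
  obtain ⟨w, hw, hw1, hwc⟩ := Cfsg.Agent.Characters.CNBasic.exists_mem_center_of_normal D hDp D hDp hDne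
    (fun t ht d hd => D.mul_mem (D.mul_mem ht hd) (D.inv_mem ht))
  -- `w` and `y` are in the centre of `T`
  have key : ∀ v ∈ T, (∀ t ∈ T, t * v = v * t) → g * v * g⁻¹ ∈ Z := by
    intro v hv hc
    refine h.ZS _ ?_ ?_
    · rw [← h6]
      exact ⟨v, hv, rfl⟩
    · intro s hs
      rw [← h6] at hs
      obtain ⟨t, ht, rfl⟩ := hs
      change g * t * g⁻¹ * (g * v * g⁻¹) = g * v * g⁻¹ * (g * t * g⁻¹)
      calc g * t * g⁻¹ * (g * v * g⁻¹) = g * (t * v) * g⁻¹ := by group
        _ = g * (v * t) * g⁻¹ := by rw [hc t ht]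
        _ = _ := by group
  have hTy : T ≤ centralizer {y} := by
    rw [hT]
    refine sup_le ?_ ?_
    · rw [zpowers_le]
      exact mem_centralizer_singleton_iff.2 rfl
    · intro d hd
      exact mem_centralizer_singleton_iff.2 (hDy d hd)
  have hTw : T ≤ centralizer {w} := by
    rw [hT]
    refine sup_le ?_ ?_
    · rw [zpowers_le]
      exact mem_centralizer_singleton_iff.2 (hDy w hw).symm
    · intro d hd
      exact mem_centralizer_singleton_iff.2 (hwc d hd)
  have k1 := key y hyT fun t ht => mem_centralizer_singleton_iff.1 (hTy ht)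
  have k2 := key w (hDT hw) fun t ht => mem_centralizer_singleton_iff.1 (hTw ht)
  have h7 : g * w * g⁻¹ ≠ 1 := fun h8 => hw1 (conj_eq_one_iff.1 h8)
  have h8 := H261.eq_of_mem_of_card_prime Nat.prime_three h.cardZ k2 h7 (mem_zpowers (g * w * g⁻¹)) k1
  obtain ⟨n, hn⟩ := mem_zpowers_iff.1 h8
  rw [conj_zpow] at hn
  have h9 : w ^ n = y := by
    have := congrArg (fun t => g⁻¹ * t * g) hn
    simpa [mul_assoc] using this
  apply hyD
  rw [← h9]
  exact D.zpow_mem hw n

/-- the image of `W` in `G` -/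
theorem mem_W_of_relIndex {y : G} (hy : orderOf y = 3) (hr : (centralizer {y}).relIndex (S : Subgroup G) ≤ 3) :
    ∃ hyC : y ∈ centralizer (Z : Set G),
      (⟨y, hyC⟩ : ↥(centralizer (Z : Set G))) ∈ h.lc.W ((S : Subgroup G).subgroupOf (centralizer (Z : Set G))) := by
  have hyS := h.mem_S_of_relIndex hy hr
  refine ⟨h.SC hyS, ?_⟩
  have hcS : Nat.card ↥((S : Subgroup G).subgroupOf (centralizer (Z : Set G))) = 729 := by
    rw [Nat.card_congr (Subgroup.subgroupOfEquivOfLe h.SC).toEquiv]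
    exact h.cardS
  refine h.lc.mem_W_of_relIndex (S := (S : Subgroup G).subgroupOf (centralizer (Z : Set G)))
    (fun x hx => h.QS hx) hcS hyS ?_
  refine le_trans (le_of_eq ?_) hr
  have h1 : centralizer {(⟨y, h.SC hyS⟩ : ↥(centralizer (Z : Set G)))} =
      (centralizer {y}).subgroupOf (centralizer (Z : Set G)) := by
    ext x
    rw [mem_centralizer_singleton_iff, mem_subgroupOf, mem_centralizer_singleton_iff]
    exact ⟨fun h => congrArg Subtype.val h, fun h => Subtype.ext h⟩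
  rw [h1, Subgroup.relIndex_subgroupOf h.SC]

/-- **The number of conjugates of `z` modulo 9.** -/
theorem index_mod (hw : ∃ x : G, Z.map (MulAut.conj x).toMonoidHom ≤ Q ∧ Z.map (MulAut.conj x).toMonoidHom ≠ Z) :
    (centralizer (Z : Set G)).index % 9 = 5 ∨ (centralizer (Z : Set G)).index % 9 = 8 := by
  obtain ⟨x, z, hz, hz1, hyQ, hyZ⟩ := h.exists_y hw
  have hcS : Nat.card ↥(S : Subgroup G) = 729 := h.cardS
  have hcS' : Nat.card ↥((S : Subgroup G).subgroupOf (centralizer (Z : Set G))) = 729 := by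
    rw [Nat.card_congr (Subgroup.subgroupOfEquivOfLe h.SC).toEquiv]
    exact h.cardS
  have hQS' : Q.subgroupOf (centralizer (Z : Set G)) ≤ (S : Subgroup G).subgroupOf (centralizer (Z : Set G)) :=
    fun x hx => h.QS hx
  have hz3 : z ^ 3 = 1 := congrArg Subtype.val (h.lc.exp ⟨z, h.QC (h.le hz)⟩ (h.le hz))
  have hoz : orderOf z = 3 := orderOf_eq_prime hz3 hz1
  -- the class of `z`
  let O : Set G := {y | ∃ g : G, g * z * g⁻¹ = y}
  have hO : ∀ m : G, ∀ y ∈ O, m * y * m⁻¹ ∈ O := by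
    rintro m _ ⟨g, rfl⟩
    exact ⟨m * g, by group⟩
  have hOo : ∀ y ∈ O, orderOf y = 3 := by
    rintro _ ⟨g, rfl⟩
    have h1 : orderOf (MulAut.conj g z) = orderOf z := MulEquiv.orderOf_eq (MulAut.conj g) z
    rw [hoz] at h1
    exact h1
  have hOc : Nat.card ↥O = (centralizer (Z : Set G)).index := by
    rw [← h.centralizer_eq hz hz1, ← Subgroup.relIndex_top_right,
      ← card_orbit (⊤ : Subgroup G) O (fun m _ => hO m) ⟨z, 1, by group⟩]
    let _ := conjAct (⊤ : Subgroup G) O (fun m _ => hO m)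
    have h1 : MulAction.orbit ↥(⊤ : Subgroup G) (⟨z, 1, by group⟩ : ↥O) = Set.univ := by
      rw [Set.eq_univ_iff_forall]
      rintro ⟨_, g, rfl⟩
      exact ⟨⟨g, mem_top g⟩, rfl⟩
    rw [h1, Nat.card_univ]
  rw [← hOc]
  -- the three parts
  let W' := h.lc.W ((S : Subgroup G).subgroupOf (centralizer (Z : Set G)))
  let X : Set ↥(centralizer (Z : Set G)) := {x | x ∈ W' ∧ x ∉ Z.subgroupOf (centralizer (Z : Set G)) ∧ (x : G) ∈ O}
  let R : Set G := {y | y ∈ O ∧ ∀ hy : y ∈ centralizer (Z : Set G), (⟨y, hy⟩ : ↥(centralizer (Z : Set G))) ∉ W'}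
  have hX12 : 12 ∣ Nat.card ↥X := by
    refine h.lc.twelve_dvd_card hQS' hcS' ?_ ?_
    · rintro m hm y ⟨h1, h2, h3⟩
      exact ⟨h.lc.conj_W hm h1, h.lc.conj_notMem_Z h2, hO m y h3⟩
    · rintro y ⟨h1, h2, h3⟩
      exact ⟨h1.1, h2⟩
  have hX24 : Nat.card ↥X ≤ 24 := by
    have h1 : Nat.card ↥X + 3 ≤ 27 := by
      have h1 := h.lc.card_W hQS' hcS'
      have h0 := h.lc.cardZ
      have h2 : Disjoint X ((Z.subgroupOf (centralizer (Z : Set G)) : Subgroup _) : Set ↥(centralizer (Z : Set G))) := by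
        rw [Set.disjoint_left]
        rintro y ⟨-, hy, -⟩ hy'
        exact hy hy'
      have h3 := Set.ncard_union_eq h2 (Set.toFinite _) (Set.toFinite _)
      have h4 : Set.ncard (X ∪ ((Z.subgroupOf (centralizer (Z : Set G)) : Subgroup _) :
          Set ↥(centralizer (Z : Set G)))) ≤ Set.ncard (W' : Set ↥(centralizer (Z : Set G))) := by
        refine Set.ncard_le_ncard ?_ (Set.toFinite _)
        rintro y (hy | hy)
        · exact hy.1
        · exact h.lc.Z_le_W hy
      rw [h3] at h4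
      have h5 : Nat.card ↥X + Nat.card ↥(Z.subgroupOf (centralizer (Z : Set G))) ≤ Nat.card ↥W' := h4
      rw [h0, h1] at h5
      exact h5
    omega
  have hXne : 0 < Nat.card ↥X := by
    obtain ⟨c, hc⟩ := h.lc.exists_good hQS' hcS' (q := ⟨x * z * x⁻¹, h.QC hyQ⟩) hyQ hyZ
    have h1 : c * ⟨x * z * x⁻¹, h.QC hyQ⟩ * c⁻¹ ∈ X :=
      ⟨hc, h.lc.conj_notMem_Z hyZ, hO c _ ⟨x, rfl⟩⟩
    have : Nonempty ↥X := ⟨⟨_, h1⟩⟩
    exact Nat.card_pos
  have hR9 : 9 ∣ Nat.card ↥R := by
    refine dvd_card (S : Subgroup G) R ?_ 9 ?_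
    · rintro m hm y ⟨h1, h2⟩
      refine ⟨hO m y h1, fun hy hyW => ?_⟩
      have hmC := h.SC hm
      have h3 : y ∈ centralizer (Z : Set G) := by
        have h4 := (centralizer (Z : Set G)).mul_mem ((centralizer (Z : Set G)).mul_mem
          ((centralizer (Z : Set G)).inv_mem hmC) hy) hmC
        have h5 : m⁻¹ * (m * y * m⁻¹) * m = y := by group
        rwa [h5] at h4
      apply h2 h3
      have h6 : (⟨m, hmC⟩ : ↥(centralizer (Z : Set G)))⁻¹ ∈
          normalizer (((S : Subgroup G).subgroupOf (centralizer (Z : Set G)) : Subgroup _) :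
            Set ↥(centralizer (Z : Set G))) :=
        le_normalizer (Subgroup.inv_mem _ hm)
      have h7 := h.lc.conj_W h6 hyW
      have h8 : (⟨m, hmC⟩ : ↥(centralizer (Z : Set G)))⁻¹ * ⟨m * y * m⁻¹, hy⟩ * (⟨m, hmC⟩ : ↥(centralizer (Z : Set G)))⁻¹⁻¹
          = ⟨y, h3⟩ := by
        apply Subtype.ext
        change m⁻¹ * (m * y * m⁻¹) * m⁻¹⁻¹ = y
        group
      rwa [h8] at h7
    · rintro y ⟨h1, h2⟩
      have h4 : (centralizer {y}).relIndex (S : Subgroup G) ∣ 3 ^ 6 := by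
        have := Subgroup.relIndex_dvd_card (centralizer {y}) (S : Subgroup G)
        rwa [hcS] at this
      obtain ⟨j, hj, hj2⟩ := (Nat.dvd_prime_pow Nat.prime_three).1 h4
      rw [hj2]
      have h5 : 2 ≤ j := by
        by_contra hcon
        push Not at hcon
        have h6 : (centralizer {y}).relIndex (S : Subgroup G) ≤ 3 := by
          rw [hj2]
          calc 3 ^ j ≤ 3 ^ 1 := Nat.pow_le_pow_right (by norm_num) (by omega)
            _ = 3 := by norm_num
        obtain ⟨h7, h8⟩ := h.mem_W_of_relIndex (hOo y h1) h6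
        exact h2 h7 h8
      exact pow_dvd_pow 3 h5
  have hZ2 : Nat.card ↥{y : G | y ∈ O ∧ y ∈ Z} = 2 := by
    obtain ⟨c, hc, hcy⟩ := h.exists_inv hyQ hyZ
    have h1 : {y : G | y ∈ O ∧ y ∈ Z} = {z, z⁻¹} := by
      ext y
      constructor
      · rintro ⟨h1, h2⟩
        have h3 : Z ≤ zpowers z := H261.eq_of_mem_of_card_prime Nat.prime_three h.cardZ hz hz1 (mem_zpowers z)
        obtain ⟨i, hi⟩ := mem_zpowers_iff.1 (h3 h2)
        have hi2 : z ^ i = z ^ (i % 3) := by
          conv_lhs => rw [← Int.mul_ediv_add_emod i 3, zpow_add, zpow_mul]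
          have : z ^ (3 : ℤ) = 1 := by rw [← hz3]; norm_cast
          rw [this, one_zpow, one_mul]
        have h0 : 0 ≤ i % 3 := Int.emod_nonneg i (by norm_num)
        have h4 : i % 3 < 3 := Int.emod_lt_of_pos i (by norm_num)
        have h5 : i % 3 = 0 ∨ i % 3 = 1 ∨ i % 3 = 2 := by omega
        rcases h5 with h5 | h5 | h5
        · exfalso
          rw [hi2, h5, zpow_zero] at hi
          have h6 := hOo y h1
          rw [← hi, orderOf_one] at h6
          norm_num at h6
        · left; rw [← hi, hi2, h5, zpow_one]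
        · right
          rw [Set.mem_singleton_iff, ← hi, hi2, h5]
          have h5 : z ^ (2 : ℤ) = z ^ 3 * z⁻¹ := by
            rw [pow_succ, mul_inv_cancel_right]
            norm_cast
          rw [h5, hz3, one_mul]
      · rintro (rfl | h1)
        · exact ⟨⟨1, by group⟩, hz⟩
        · rw [Set.mem_singleton_iff] at h1
          refine ⟨⟨x⁻¹ * c * x, ?_⟩, by rw [h1]; exact Z.inv_mem hz⟩
          rw [h1]
          calc (x⁻¹ * c * x) * z * (x⁻¹ * c * x)⁻¹ = x⁻¹ * (c * (x * z * x⁻¹) * c⁻¹) * x := by group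
            _ = x⁻¹ * (x * z * x⁻¹)⁻¹ * x := by rw [hcy]
            _ = z⁻¹ := by group
    rw [h1, Nat.card_coe_set_eq]
    refine Set.ncard_pair ?_
    intro h2
    have h3 : z * z = 1 := by
      nth_rewrite 1 [h2]
      rw [inv_mul_cancel]
    have h4 : z = z ^ 3 * (z * z)⁻¹ := by rw [pow_succ, pow_two]; group
    rw [hz3, h3] at h4
    exact hz1 (by simpa using h4)
  -- the partition
  have hpart : O = {y : G | y ∈ O ∧ y ∈ Z} ∪ ((fun x : ↥(centralizer (Z : Set G)) => (x : G)) '' X ∪ R) := by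
    ext y
    constructor
    · intro hy
      by_cases hyZ' : y ∈ Z
      · exact Or.inl ⟨hy, hyZ'⟩
      · right
        by_cases hyW : ∃ hyC : y ∈ centralizer (Z : Set G), (⟨y, hyC⟩ : ↥(centralizer (Z : Set G))) ∈ W'
        · obtain ⟨hyC, hyW⟩ := hyW
          exact Or.inl ⟨⟨y, hyC⟩, ⟨hyW, hyZ', hy⟩, rfl⟩
        · push Not at hyW
          exact Or.inr ⟨hy, hyW⟩
    · rintro (hy | ⟨y, hy, rfl⟩ | hy)
      · exact hy.1
      · exact hy.2.2
      · exact hy.1
  have hd1 : Disjoint ((fun x : ↥(centralizer (Z : Set G)) => (x : G)) '' X) R := by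
    rw [Set.disjoint_left]
    rintro _ ⟨y, hy, rfl⟩ hy'
    exact hy'.2 y.2 hy.1
  have hd2 : Disjoint {y : G | y ∈ O ∧ y ∈ Z} ((fun x : ↥(centralizer (Z : Set G)) => (x : G)) '' X ∪ R) := by
    rw [Set.disjoint_left]
    rintro y ⟨hy1, hy2⟩ (⟨y, hy, rfl⟩ | hy)
    · exact hy.2.1 hy2
    · exact hy.2 (h.QC (h.le hy2)) (h.lc.Z_le_W hy2)
  have hsum : Nat.card ↥O = 2 + (Nat.card ↥X + Nat.card ↥R) := by
    rw [← hZ2]
    have e1 := Set.ncard_union_eq hd2 (Set.toFinite _) (Set.toFinite _)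
    have e2 := Set.ncard_union_eq hd1 (Set.toFinite _) (Set.toFinite _)
    rw [← hpart, e2, Set.ncard_image_of_injective _ Subtype.val_injective] at e1
    exact e1
  rw [hsum]
  obtain ⟨r, hr⟩ := hR9
  obtain ⟨k, hk⟩ := hX12
  rw [hk] at hX24 hXne
  rw [hr, hk]
  have : k = 1 ∨ k = 2 := by omega
  rcases this with rfl | rfl
  · left; omega
  · right; omega

omit [Finite G] in
theorem card_G : Nat.card G = 29160 * (centralizer (Z : Set G)).index := by
  rw [← h.card_C, Subgroup.card_mul_index]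

end GC

end Cfsg.Agent.H815.HnG
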